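import Mathlib

/-!
# S3509, rows `Fi23` and `Fi24'`: permutations (helper86)

* `inv_swap` : an involution commutes with a swap;
* `comm_or` : an element of odd order of `Perm (Fin n)`, `n ≥ 5`, commutes with a swap, or there is a swap `c` commuting
  with the involution `[c, x]`;
* `six` : commuting elements of orders 3 and 2 of `Perm (Fin 7)` commute with a swap or are conjugate to the powers of a
  6-cycle.
-/

set_option autoImplicit false

namespace Cfsg.Agent.H86.RG.Prm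

open Equiv Equiv.Perm

variable {n : ℕ}

theorem swap_conj (g : Perm (Fin n)) (a b : Fin n) : g * swap a b * g⁻¹ = swap (g a) (g b) := by
  rw [Equiv.mul_swap_eq_swap_mul, mul_inv_cancel_right]

theorem inv_swap {τ : Perm (Fin n)} (h2 : τ ^ 2 = 1) (h1 : τ ≠ 1) :
    ∃ a b : Fin n, a ≠ b ∧ swap a b * τ = τ * swap a b := by
  obtain ⟨a, ha⟩ : ∃ a, τ a ≠ a := by
    by_contra h
    push Not at h
    exact h1 (Equiv.ext h)
  refine ⟨a, τ a, ha.symm, ?_⟩
  have h3 : τ (τ a) = a := by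
    have := congrArg (fun f : Perm (Fin n) => f a) h2
    simpa [pow_two] using this
  rw [Equiv.mul_swap_eq_swap_mul, h3, swap_comm]

theorem comm_swap_of_fix {x : Perm (Fin n)} {a b : Fin n} (ha : x a = a) (hb : x b = b) :
    swap a b * x = x * swap a b := by
  rw [Equiv.mul_swap_eq_swap_mul, ha, hb]

theorem comm_or (hn : 5 ≤ n) {x : Perm (Fin n)} :
    (∃ a b : Fin n, a ≠ b ∧ swap a b * x = x * swap a b) ∨
    ∃ a b : Fin n, a ≠ b ∧ (swap a b * x * (swap a b)⁻¹ * x⁻¹) ^ 2 = 1 ∧ swap a b * x * (swap a b)⁻¹ * x⁻¹ ≠ 1 ∧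
      swap a b * (swap a b * x * (swap a b)⁻¹ * x⁻¹) = swap a b * x * (swap a b)⁻¹ * x⁻¹ * swap a b := by
  by_cases hf : ∃ a b : Fin n, a ≠ b ∧ x a = a ∧ x b = b
  · obtain ⟨a, b, hab, ha, hb⟩ := hf
    exact Or.inl ⟨a, b, hab, comm_swap_of_fix ha hb⟩
  right
  push Not at hf
  have hsup : n ≤ x.support.card + 1 := by
    have h1 : (x.supportᶜ).card ≤ 1 := by
      rw [Finset.card_le_one]
      intro a ha b hb
      by_contra hab
      rw [Finset.mem_compl, mem_support, not_not] at ha hb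
      exact hf a b hab ha hb
    have h2 := Finset.card_add_card_compl x.support
    rw [Fintype.card_fin] at h2
    omega
  obtain ⟨a, ha⟩ : x.support.Nonempty := by
    rw [← Finset.card_pos]; omega
  obtain ⟨b, hb⟩ : (x.support \ {a, x a, x⁻¹ a}).Nonempty := by
    rw [← Finset.card_pos]
    have h1 := Finset.le_card_sdiff ({a, x a, x⁻¹ a} : Finset (Fin n)) x.support
    have h2 : ({a, x a, x⁻¹ a} : Finset (Fin n)).card ≤ 3 := Finset.card_le_three
    omega
  rw [Finset.mem_sdiff, mem_support] at hb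
  simp only [Finset.mem_insert, Finset.mem_singleton, not_or] at hb
  obtain ⟨hb1, hb2, hb3, hb4⟩ := hb
  rw [mem_support] at ha
  have hxb : x b ≠ a := fun h => hb4 (by rw [← h]; simp)
  have key : swap a b * x * (swap a b)⁻¹ * x⁻¹ = swap a b * swap (x a) (x b) := by
    rw [swap_inv, mul_assoc (swap a b) x, mul_assoc, swap_conj]
  have hdis : Disjoint (swap a b) (swap (x a) (x b)) := by
    rw [Equiv.Perm.disjoint_iff_disjoint_support, support_swap (Ne.symm hb2), support_swap (fun h => hb2 (x.injective h).symm)]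
    rw [Finset.disjoint_left]
    intro c hc
    simp only [Finset.mem_insert, Finset.mem_singleton] at hc ⊢
    rcases hc with rfl | rfl
    · rintro (h | h)
      · exact ha h.symm
      · exact hxb h.symm
    · rintro (h | h)
      · exact hb3 h
      · exact hb1 h.symm
  have hcm := hdis.commute
  refine ⟨a, b, Ne.symm hb2, ?_, ?_, ?_⟩
  · rw [key, hcm.mul_pow, pow_two, swap_mul_self, pow_two, swap_mul_self, mul_one]
  · rw [key]
    intro h
    have h1 := congrArg (fun f : Perm (Fin n) => f (x a)) h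
    simp only [mul_apply, swap_apply_left, one_apply] at h1
    rw [swap_apply_of_ne_of_ne hxb hb1] at h1
    exact hb2 (x.injective h1)
  · rw [key, mul_assoc, hcm.eq]

/-- the standard 6-cycle -/
def c6 : Perm (Fin 7) := swap 0 1 * swap 1 2 * swap 2 3 * swap 3 4 * swap 4 5

theorem six {ξ τ : Perm (Fin 7)} (h3 : ξ ^ 3 = 1) (h2 : τ ^ 2 = 1) (h1 : τ ≠ 1) (hc : ξ * τ = τ * ξ) :
    (∃ a b : Fin 7, a ≠ b ∧ swap a b * ξ = ξ * swap a b ∧ swap a b * τ = τ * swap a b) ∨
    ∃ g : Perm (Fin 7), ξ = g * c6 ^ 4 * g⁻¹ ∧ τ = g * c6 ^ 3 * g⁻¹ := by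
  obtain ⟨a, ha⟩ : ∃ a, τ a ≠ a := by
    by_contra h
    push Not at h
    exact h1 (Equiv.ext h)
  have htt : ∀ x, τ (τ x) = x := fun x => by
    have := congrArg (fun f : Perm (Fin 7) => f x) h2
    simpa [pow_two] using this
  have hxt : ∀ x, ξ (τ x) = τ (ξ x) := fun x => congrArg (fun f : Perm (Fin 7) => f x) hc
  have hxxx : ∀ x, ξ (ξ (ξ x)) = x := fun x => by
    have := congrArg (fun f : Perm (Fin 7) => f x) h3
    simpa [pow_succ, pow_two] using this
  by_cases hxa : ξ a = a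
  · left
    refine ⟨a, τ a, ha.symm, comm_swap_of_fix hxa (by rw [hxt, hxa]), ?_⟩
    rw [Equiv.mul_swap_eq_swap_mul, htt, swap_comm]
  right
  -- the 6 points
  let π : Perm (Fin 7) := ξ * τ
  let f : Fin 6 → Fin 7 := fun i => (π ^ (i : ℕ)) a
  have hcm : Commute ξ τ := hc
  have hπ6 : π ^ 6 = 1 := by
    show (ξ * τ) ^ 6 = 1
    rw [hcm.mul_pow, show 6 = 3 * 2 from rfl, pow_mul, h3, one_pow, mul_comm 3 2, pow_mul, h2, one_pow, mul_one]
  have hπ2 : π ^ 2 = ξ ^ 2 := by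
    show (ξ * τ) ^ 2 = _
    rw [hcm.mul_pow, h2, mul_one]
  have hπ3 : π ^ 3 = τ := by
    show (ξ * τ) ^ 3 = _
    rw [hcm.mul_pow, h3, one_mul, pow_succ, h2, one_mul]
  have hπ4 : π ^ 4 = ξ := by
    rw [show 4 = 3 + 1 from rfl, pow_succ, hπ3]
    show τ * (ξ * τ) = ξ
    rw [hc, ← mul_assoc, ← pow_two, h2, one_mul]
  have hst : ∀ k : ℕ, k < 6 → (π ^ k) a = a → k = 0 := by
    intro k hk hka
    have e2 : (π ^ 2) a ≠ a := by
      rw [hπ2]
      intro h
      apply hxa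
      have : ξ (ξ a) = a := by simpa [pow_two] using h
      calc ξ a = ξ (ξ (ξ a)) := by rw [this]
        _ = a := hxxx a
    have e3 : (π ^ 3) a ≠ a := by rw [hπ3]; exact ha
    have e4 : (π ^ 4) a ≠ a := by rw [hπ4]; exact hxa
    have h6 : (π ^ 6) a = a := by rw [hπ6]; rfl
    have h1' : (π ^ 1) a ≠ a := by
      intro h
      apply e2
      rw [pow_one] at h
      rw [pow_two, mul_apply, h, h]
    have h5 : (π ^ 5) a ≠ a := by
      intro h
      apply h1'
      have : (π ^ 6) a = π ((π ^ 5) a) := by rw [pow_succ' π 5, mul_apply]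
      rw [this, h] at h6
      rw [pow_one]; exact h6
    interval_cases k
    · rfl
    · exact absurd hka h1'
    · exact absurd hka e2
    · exact absurd hka e3
    · exact absurd hka e4
    · exact absurd hka h5
  have hinj : Function.Injective f := by
    have key : ∀ i j : Fin 6, (i : ℕ) ≤ j → f i = f j → i = j := by
      intro i j hij h
      have h' : (π ^ (i : ℕ)) a = (π ^ (j : ℕ)) a := h
      have h7 : (π ^ ((j : ℕ) - i)) a = a := by
        apply (π ^ (i : ℕ)).injective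
        rw [← mul_apply, ← pow_add, h']
        congr 2
        omega
      have := hst _ (by omega) h7
      exact Fin.ext (by omega)
    intro i j h
    rcases le_total (i : ℕ) j with hij | hij
    · exact key i j hij h
    · exact (key j i hij h.symm).symm
  -- the seventh point
  obtain ⟨p, hp⟩ : ∃ p, p ∉ Finset.univ.image f := by
    by_contra h
    push Not at h
    have h8 : (Finset.univ : Finset (Fin 7)) ⊆ Finset.univ.image f := fun x _ => h x
    have h9 := Finset.card_le_card h8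
    rw [Finset.card_image_of_injective _ hinj] at h9
    simp at h9
  have hp' : ∀ i, f i ≠ p := fun i h => hp (Finset.mem_image.2 ⟨i, Finset.mem_univ _, h⟩)
  let gf : Fin 7 → Fin 7 := fun i => if h : (i : ℕ) < 6 then f ⟨i, h⟩ else p
  have hgf : Function.Injective gf := by
    intro i j h
    by_cases hi : (i : ℕ) < 6 <;> by_cases hj : (j : ℕ) < 6
    · simp only [gf, hi, hj, dif_pos] at h
      have := congrArg Fin.val (hinj h)
      exact Fin.ext this
    · simp only [gf, hi, hj, dif_pos, dif_neg, not_false_iff] at h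
      exact absurd h (hp' _)
    · simp only [gf, hi, hj, dif_pos, dif_neg, not_false_iff] at h
      exact absurd h.symm (hp' _)
    · exact Fin.ext (by omega)
  let g : Perm (Fin 7) := Equiv.ofBijective gf (Finite.injective_iff_bijective.1 hgf)
  have hg : ∀ i, g i = gf i := fun i => rfl
  have hπp : π p = p := by
    by_contra h
    have h8 : π p ∈ Finset.univ.image f := by
      by_contra h9
      -- p and π p are outside of the image, of 6 elements
      have h10 : (insert p (insert (π p) (Finset.univ.image f))).card ≤ 7 := by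
        have := Finset.card_le_univ (insert p (insert (π p) (Finset.univ.image f)))
        simpa using this
      rw [Finset.card_insert_of_notMem, Finset.card_insert_of_notMem h9, Finset.card_image_of_injective _ hinj] at h10
      · simp at h10
      · rw [Finset.mem_insert, not_or]
        exact ⟨fun h11 => h h11.symm, hp⟩
    obtain ⟨i, -, hi⟩ := Finset.mem_image.1 h8
    -- p = π⁻¹ (f i) in the image
    apply hp
    have h12 : p = (π ^ ((i : ℕ) + 5)) a := by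
      apply π.injective
      rw [← hi, ← mul_apply, ← pow_succ', show (i : ℕ) + 5 + 1 = 6 + i by omega, pow_add, hπ6, one_mul]
    rw [Finset.mem_image]
    refine ⟨⟨((i : ℕ) + 5) % 6, Nat.mod_lt _ (by norm_num)⟩, Finset.mem_univ _, ?_⟩
    rw [h12]
    show (π ^ (((i : ℕ) + 5) % 6)) a = _
    conv_rhs => rw [← Nat.mod_add_div ((i : ℕ) + 5) 6, pow_add, pow_mul, hπ6, one_pow, mul_one]
  have hconj : π = g * c6 * g⁻¹ := by
    rw [eq_mul_inv_iff_mul_eq]
    ext i : 1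
    show π (gf i) = gf (c6 i)
    have e : ∀ k : ℕ, π ((π ^ k) a) = (π ^ (k + 1)) a := fun k => by rw [pow_succ']; rfl
    fin_cases i
    · exact e 0
    · exact e 1
    · exact e 2
    · exact e 3
    · exact e 4
    · show π ((π ^ 5) a) = (π ^ 0) a
      rw [e 5, show 5 + 1 = 6 from rfl, hπ6, pow_zero]
    · exact hπp
  refine ⟨g, ?_, ?_⟩
  · rw [← hπ4, hconj, conj_pow]
  · rw [← hπ3, hconj, conj_pow]

/-- the replacement in the 6-cycle case -/
theorem c6_fact : ∃ c b : Perm (Fin 7), (∃ i j, i ≠ j ∧ c = swap i j) ∧ (∃ i j, i ≠ j ∧ b = swap i j) ∧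
    c * c6 ^ 3 = c6 ^ 3 * c ∧
    b * (c * c6 ^ 4 * c⁻¹ * (c6 ^ 4)⁻¹) = (c * c6 ^ 4 * c⁻¹ * (c6 ^ 4)⁻¹) * b ∧
    (c * c6 ^ 4 * c⁻¹ * (c6 ^ 4)⁻¹) ^ 2 = 1 ∧ (c * c6 ^ 4 * c⁻¹ * (c6 ^ 4)⁻¹) ≠ 1 ∧
    (b * c6 ^ 3 * b⁻¹ * (c6 ^ 3)⁻¹) ^ 3 = 1 ∧ (b * c6 ^ 3 * b⁻¹ * (c6 ^ 3)⁻¹) ≠ 1 ∧
    (b * c6 ^ 3 * b⁻¹ * (c6 ^ 3)⁻¹) * (c * c6 ^ 4 * c⁻¹ * (c6 ^ 4)⁻¹) =
      (c * c6 ^ 4 * c⁻¹ * (c6 ^ 4)⁻¹) * (b * c6 ^ 3 * b⁻¹ * (c6 ^ 3)⁻¹) ∧
    c * (c * c6 ^ 4 * c⁻¹ * (c6 ^ 4)⁻¹) = (c * c6 ^ 4 * c⁻¹ * (c6 ^ 4)⁻¹) * c ∧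
    c * (b * c6 ^ 3 * b⁻¹ * (c6 ^ 3)⁻¹) = (b * c6 ^ 3 * b⁻¹ * (c6 ^ 3)⁻¹) * c :=
  ⟨swap 0 3, swap 2 6, ⟨0, 3, by decide, rfl⟩, ⟨2, 6, by decide, rfl⟩, by decide +kernel, by decide +kernel,
    by decide +kernel, by decide +kernel, by decide +kernel, by decide +kernel, by decide +kernel, by decide +kernel,
    by decide +kernel⟩

/-- two elements of orders 3 and 2 of `Perm (Fin 7)` -/
theorem six_repl {ξ τ : Perm (Fin 7)} (h3 : ξ ^ 3 = 1) (h2 : τ ^ 2 = 1) (h1 : τ ≠ 1) (hc : ξ * τ = τ * ξ) :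
    (∃ a b : Fin 7, a ≠ b ∧ swap a b * ξ = ξ * swap a b ∧ swap a b * τ = τ * swap a b) ∨
    ∃ c b y s : Perm (Fin 7), (∃ i j, i ≠ j ∧ c = swap i j) ∧ y = c * ξ * c⁻¹ * ξ⁻¹ ∧ s = b * τ * b⁻¹ * τ⁻¹ ∧
      c * τ = τ * c ∧ b * y = y * b ∧ y ^ 2 = 1 ∧ y ≠ 1 ∧ s ^ 3 = 1 ∧ s ≠ 1 ∧ s * y = y * s ∧ c * y = y * c ∧
      c * s = s * c := by
  rcases six h3 h2 h1 hc with h | ⟨g, hg1, hg2⟩
  · exact Or.inl h
  right
  obtain ⟨c, b, ⟨i, j, hij, hcs⟩, -, f1, f2, f3, f4, f5, f6, f7, f8, f9⟩ := c6_fact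
  let φ : Perm (Fin 7) ≃* Perm (Fin 7) := MulAut.conj g
  have hφ : ∀ x, φ x = g * x * g⁻¹ := fun x => rfl
  rw [← hφ] at hg1 hg2
  refine ⟨φ c, φ b, _, _, ⟨g i, g j, fun h => hij (g.injective h), by rw [hφ, hcs, swap_conj]⟩, rfl, rfl, ?_⟩
  rw [hg1, hg2]
  simp only [← map_mul, ← map_inv, ← map_pow, EmbeddingLike.apply_eq_iff_eq, EmbeddingLike.map_eq_one_iff, ne_eq]
  exact ⟨f1, f2, f3, f4, f5, f6, f7, f8, f9⟩

end Cfsg.Agent.H86.RG.Prm
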